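import Cfsg.Agent.H920.Rg.CaseA

/-!
# S3691, residual case D+1 beta: a component containing `y` (helper920)
-/

set_option autoImplicit false
set_option linter.unusedSectionVars false

open Cfsg Matrix Module
open QuadraticMap Cfsg.Agent.LieClassical.OrthCore Cfsg.Agent.LieClassical.OrthTrans
  Cfsg.Agent.ClassicalGeometry.OrthSemi Cfsg.Agent.H449.Reg Cfsg.Agent.H883.Sub
open Cfsg.Agent.H890.SpParity (fix mem_fix even_E)
open Cfsg.Agent.H997.Rg
open Cfsg.Agent.SignalizersComponents.Components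

namespace Cfsg.Agent.H920.Rg

universe u v

/-- a group of order divisible by 4 in which commuting involutions are equal has elements of order 4 -/
theorem exists_four {K : Type*} [Group K] [Finite K] (hinv : ∀ a b : K, Commute a b → orderOf a = 2 → orderOf b = 2 → a = b)
    (L : Subgroup K) (h4 : 4 ∣ Nat.card L) : ∃ t ∈ L, orderOf t = 4 := by
  classical
  have := Fact.mk Nat.prime_two
  obtain ⟨H, hH⟩ := Sylow.exists_subgroup_card_pow_prime (G := L) 2 (n := 2) (by norm_num; exact h4)
  norm_num at hH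
  by_contra hcon
  push Not at hcon
  have hsq : ∀ x : H, x ^ 2 = 1 := by
    intro x
    have h1 : orderOf x ∣ 4 := by rw [← hH]; exact orderOf_dvd_natCard x
    have h2 : orderOf x ≠ 4 := by
      intro h2
      exact hcon ((x : L) : K) (x : L).2 (by rw [Subgroup.orderOf_coe, Subgroup.orderOf_coe]; exact h2)
    have h3 : orderOf x ∣ 2 := by
      have h4 : orderOf x ≤ 4 := Nat.le_of_dvd (by norm_num) h1
      have h5 : 0 < orderOf x := orderOf_pos x
      have h6 : orderOf x ≠ 3 := by
        intro h6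
        rw [h6] at h1
        norm_num at h1
      have h7 : orderOf x = 1 ∨ orderOf x = 2 := by omega
      rcases h7 with h7 | h7 <;> rw [h7]
      exact one_dvd 2
    exact orderOf_dvd_iff_pow_eq_one.1 h3
  have hcomm : ∀ a b : H, a * b = b * a := by
    intro a b
    have h1 : a * a = 1 := by rw [← pow_two]; exact hsq a
    have h2 : b * b = 1 := by rw [← pow_two]; exact hsq b
    have h3 : (a * b) * (a * b) = 1 := by rw [← pow_two]; exact hsq _
    calc a * b = (a * b)⁻¹ := (inv_eq_of_mul_eq_one_left h3).symm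
      _ = b⁻¹ * a⁻¹ := mul_inv_rev a b
      _ = b * a := by rw [inv_eq_of_mul_eq_one_left h1, inv_eq_of_mul_eq_one_left h2]
  have hall : ∀ a b : H, a ≠ 1 → b ≠ 1 → a = b := by
    intro a b ha hb
    have ho : ∀ x : H, x ≠ 1 → orderOf (((x : L) : K)) = 2 := by
      intro x hx
      rw [Subgroup.orderOf_coe, Subgroup.orderOf_coe]
      exact orderOf_eq_prime (hsq x) hx
    have h1 := hinv ((a : L) : K) ((b : L) : K) (congrArg (fun z : H => ((z : L) : K)) (hcomm a b)) (ho a ha) (ho b hb)
    exact Subtype.ext (Subtype.ext h1)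
  have hfin := Fintype.ofFinite H
  have hle : Nat.card H ≤ 2 := by
    by_cases hn : ∃ a : H, a ≠ 1
    · obtain ⟨a, ha⟩ := hn
      have h1 : (Finset.univ : Finset H) ⊆ {1, a} := by
        intro x _
        by_cases hx : x = 1
        · rw [hx]; exact Finset.mem_insert_self _ _
        · rw [hall x a hx ha]; exact Finset.mem_insert_of_mem (Finset.mem_singleton_self _)
      rw [Nat.card_eq_fintype_card, ← Finset.card_univ]
      exact (Finset.card_le_card h1).trans Finset.card_le_two
    · push Not at hn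
      have h1 : (Finset.univ : Finset H) ⊆ {1} := by
        intro x _
        rw [hn x]; exact Finset.mem_singleton_self _
      rw [Nat.card_eq_fintype_card, ← Finset.card_univ]
      exact (Finset.card_le_card h1).trans (by simp)
  omega

variable {F : Type u} {V : Type v} [Field F] [AddCommGroup V] [Module F V] {Q : QuadraticForm F V}

namespace Bt

variable [Finite F] [FiniteDimensional F V] {K : Subgroup (V ≃ₗ[F] V)} {Γ : Subgroup (Gam Q)} {p f m r : ℕ} {c : F}
  (h : Bt Q K Γ p f m r c)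
include h

theorem cent_normal {L : Subgroup K} (hLn : L.Normal) : (Subgroup.centralizer (L : Set K)).Normal :=
  Subgroup.normal_centralizer

theorem cent_comm {L : Subgroup K} {y : K} (hyL : y ∈ L) : ∀ c ∈ Subgroup.centralizer (L : Set K), c * y = y * c :=
  fun _ hc => (Subgroup.mem_centralizer_iff.1 hc y hyL).symm

/-- **`p` odd: the centraliser of `L` is a `p'`-group** -/
theorem cent_odd (hExt : StmtExt.{u, v}) (hDick : StmtDick.{v, v}) (hp2 : p ≠ 2) {y : K} (hy : orderOf y = r) {L : Subgroup K}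
    (hLn : L.Normal) (hyL : y ∈ L) (h4 : 4 ∣ Nat.card L) : ¬ p ∣ Nat.card (Subgroup.centralizer (L : Set K)) := by
  intro hd
  have := h.finGL
  have := h.charP
  have := h.nontrivialV
  have hinv : ∀ a b : K, Commute a b → orderOf a = 2 → orderOf b = 2 → a = b :=
    fun a b hab ha hb => h.fpf.inv h.prime hp2 a b hab ha hb
  obtain ⟨C0, h1, -, -, -⟩ := h.dick_data hExt hDick hy (h.cent_normal hLn) (h.cent_comm hyL) hd
  obtain ⟨u, -, hu, t, -, htu⟩ := h1 hp2
  obtain ⟨w, hwL, hw⟩ := exists_four hinv L h4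
  have huC := u.2
  have hcw : Commute w (u : K) := Subgroup.mem_centralizer_iff.1 huC w hwL
  have huo : orderOf (u : K) = 4 := by rw [Subgroup.orderOf_coe]; exact hu
  have hsq : ∀ x : K, orderOf x = 4 → orderOf (x ^ 2) = 2 := by
    intro x hx
    rw [orderOf_pow, hx]; rfl
  have hw2 : w ^ 2 = (u : K) ^ 2 := hinv _ _ ((hcw.pow_left 2).pow_right 2) (hsq w hw) (hsq _ huo)
  have hwu : (w * u) ^ 2 = 1 := by
    rw [hcw.mul_pow, hw2, ← pow_add]
    have : (u : K) ^ (2 + 2) = (u : K) ^ orderOf (u : K) := by rw [huo]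
    rw [this, pow_orderOf_eq_one]
  have huL : (u : K) ∈ L := by
    by_cases h2 : w * u = 1
    · rw [eq_inv_of_mul_eq_one_right h2]
      exact L.inv_mem hwL
    · have h3 : orderOf (w * (u : K)) = 2 := orderOf_eq_prime hwu h2
      have h5 : w * (u : K) = (u : K) ^ 2 := hinv _ _
        ((hcw.mul_left (Commute.refl _)).pow_right 2) h3 (hsq _ huo)
      rw [pow_two] at h5
      rw [← mul_right_cancel h5]
      exact hwL
  apply htu
  apply Subtype.ext
  exact (Subgroup.mem_centralizer_iff.1 t.2 (u : K) huL).symm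

/-- **`p = 2`: the centraliser of `L`** -/
theorem cent_two (hExt : StmtExt.{u, v}) (hDick : StmtDick.{v, v}) (hp2 : p = 2) {y : K} (hy : orderOf y = r) {L : Subgroup K}
    (hLn : L.Normal) (hyL : y ∈ L) (h3 : 3 ∣ Nat.card (↥L ⧸ Subgroup.center ↥L)) :
    (Nat.card (Subgroup.centralizer (L : Set K))).factorization p ≤ 1 := by
  have := h.finGL
  by_cases hd : p ∣ Nat.card (Subgroup.centralizer (L : Set K))
  swap
  · rw [Nat.factorization_eq_zero_of_not_dvd hd]; exact Nat.zero_le 1
  obtain ⟨C0, -, h1, -, -⟩ := h.dick_data hExt hDick hy (h.cent_normal hLn) (h.cent_comm hyL) hd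
  rcases h1 hp2 with h1 | ⟨u, -, hu, t, -, htu⟩
  · rw [hp2, h1]
  · exfalso
    have huL := mem_of_dvd Nat.prime_three (h.cyc.cyc 3 Nat.prime_three (by norm_num) (by rw [hp2]; norm_num)) hLn h3
      (z := (u : K)) (by rw [Subgroup.orderOf_coe]; exact hu)
    apply htu
    apply Subtype.ext
    exact (Subgroup.mem_centralizer_iff.1 t.2 (u : K) huL).symm

/-- the `p`-part of `K` -/
theorem fac_le_cent {L : Subgroup K} {n : ℕ} (hn : n ≠ 0)
    (hd : Nat.card K ∣ Nat.card (Subgroup.centralizer (L : Set K)) * n) :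
    (Nat.card K).factorization p ≤ (Nat.card (Subgroup.centralizer (L : Set K))).factorization p + n.factorization p := by
  have := h.finGL
  have h1 := fac_le (p := p) hd (mul_ne_zero Nat.card_pos.ne' hn)
  rwa [Nat.factorization_mul Nat.card_pos.ne' hn, Finsupp.add_apply] at h1

theorem card_S_dvd (L : Subgroup K) : Nat.card (↥L ⧸ Subgroup.center ↥L) ∣ Nat.card K := by
  have := h.finGL
  exact (Subgroup.card_quotient_dvd_card _).trans (Subgroup.card_subgroup_dvd_card L)

/-- **`L / Z(L) = L₂(l)`, `l ≠ p` prime** -/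
theorem false_of_psl (hExt : StmtExt.{u, v}) (hDick : StmtDick.{v, v}) (hm : Even m) {y : K} (hy : orderOf y = r)
    {L : Subgroup K} (hLn : L.Normal) (hyL : y ∈ L) (hyC : y ∉ Subgroup.centralizer (L : Set K))
    (hZ : Subgroup.center (↥L ⧸ Subgroup.center ↥L) = ⊥)
    (hd : Nat.card K ∣ Nat.card (Subgroup.centralizer (L : Set K)) * Nat.card (MulAut (↥L ⧸ Subgroup.center ↥L)))
    {E : Type} [Field E] [Fintype E] (hpr : (Fintype.card E).Prime) (hne : Fintype.card E ≠ p) (h5 : 5 ≤ Fintype.card E)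
    (e : ↥L ⧸ Subgroup.center ↥L ≃* ProjectiveSpecialLinearGroup (Fin 2) E) : False := by
  have := h.finGL
  have := h.charP
  have := h.nontrivialV
  set l := Fintype.card E with hl
  obtain ⟨h1, h2, _⟩ := psl2_data hZ (l := l) (b := 1) hpr (by rw [pow_one]) (by rw [pow_one]; omega) e
  rw [pow_one] at h1 h2
  rw [one_mul] at h1
  have hm4 := h.hm
  have hl2 : l ≠ 2 := by omega
  have hodd : Odd l := hpr.odd_of_ne_two hl2
  have hfac : l ^ 2 - 1 = (l - 1) * (l + 1) := by
    have := Nat.sq_sub_sq l 1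
    rw [one_pow] at this
    rw [this, mul_comm]
  have hg : Nat.gcd 2 (l - 1) = 2 := by
    apply Nat.gcd_eq_left
    obtain ⟨k, hk⟩ := hodd
    exact ⟨k, by omega⟩
  rw [hg] at h2
  have hl0 : l ≠ 0 := by omega
  have hp1 : (l - 1) * (l + 1) ≠ 0 := mul_ne_zero (by omega) (by omega)
  -- `l ≤ 4 m + 1`
  have hlm : l ≤ 4 * m + 1 := by
    obtain ⟨u, v, i, hu, huv, hi⟩ := exists_split hpr (cyc_sub hpr (h.cyc.cyc l hpr hl2 hne) L) hl.symm e
    have hu' : orderOf (u : K) = l := by rw [Subgroup.orderOf_coe]; exact hu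
    have h7 : (v : K) * u * (v : K)⁻¹ = (u : K) ^ i := congrArg Subtype.val huv
    have h8 := Nat.le_of_dvd (nc_pos _) (dvd_nc hu' h7)
    have h9 := h.fpf.nc_le hpr hne hu'
    rw [h.dim] at h9
    omega
  have h8l : 8 ∣ l ^ 2 - 1 := by
    obtain ⟨k, hk⟩ := hodd
    rw [hk]
    have h10 : (2 * k + 1) ^ 2 - 1 = 4 * (k * (k + 1)) := by
      have : (2 * k + 1) ^ 2 = 4 * (k * (k + 1)) + 1 := by ring
      omega
    rw [h10]
    exact Nat.mul_dvd_mul_left 4 (Nat.even_mul_succ_self k).two_dvd
  have h4S : 4 ∣ Nat.card (↥L ⧸ Subgroup.center ↥L) := by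
    have h10 : 4 * 2 ∣ Nat.card (↥L ⧸ Subgroup.center ↥L) * 2 := by
      rw [h2]
      exact h8l.mul_left l
    exact Nat.dvd_of_mul_dvd_mul_right two_pos h10
  -- the automorphism group
  have hA : (Nat.card (MulAut (↥L ⧸ Subgroup.center ↥L))).factorization p = ((l - 1) * (l + 1)).factorization p := by
    rw [h1, hfac, Nat.factorization_mul hl0 hp1, Finsupp.add_apply, Nat.factorization_eq_zero_of_not_dvd, zero_add]
    intro hd
    exact hne ((Nat.prime_dvd_prime_iff_eq h.prime hpr).1 hd).symm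
  have hv := h.fac_le_cent (L := L) (n := Nat.card (MulAut (↥L ⧸ Subgroup.center ↥L)))
    (by rw [h1, hfac]; exact mul_ne_zero hl0 hp1) hd
  rw [hA] at hv
  obtain ⟨x, x', hxy, hx2, hx'⟩ := prod_bound (p := p) h.prime (l := l) (by omega)
  rw [hxy] at hv
  by_cases hp2 : p = 2
  · -- `p = 2`
    have h3S : 3 ∣ Nat.card (↥L ⧸ Subgroup.center ↥L) := by
      have h10 : 3 ∣ Nat.card (↥L ⧸ Subgroup.center ↥L) * 2 := by
        rw [h2, hfac]
        have h11 : l % 3 = 0 ∨ l % 3 = 1 ∨ l % 3 = 2 := by omega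
        rcases h11 with h11 | h11 | h11
        · exact (Nat.dvd_of_mod_eq_zero h11).mul_right _
        · exact (Dvd.dvd.mul_right (show 3 ∣ l - 1 by omega) _).mul_left _
        · exact (Dvd.dvd.mul_left (show 3 ∣ l + 1 by omega) _).mul_left _
      exact Nat.Coprime.dvd_of_dvd_mul_right (by norm_num) h10
    have hC := h.cent_two hExt hDick hp2 hy hLn hyL h3S
    by_cases hex : p = 2 ∧ f = 1 ∧ m = 8
    · -- the exception: `r = 17 = l`, but 9 divides `|L|`
      obtain ⟨-, hf, hm8⟩ := hex
      subst hp2 hf hm8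
      have hK : ∀ x : ℕ, Nat.Coprime 2 x → x ∣ Nat.card (↥L ⧸ Subgroup.center ↥L) → x ∣ 255 := by
        intro x hx hxd
        have h10 := h.dvd_of_coprime hx (k := 1) (by rw [one_mul]; exact hxd.trans (h.card_S_dvd L))
        norm_num at h10
        exact h10
      have hlS : l ∣ Nat.card (↥L ⧸ Subgroup.center ↥L) := by
        have h10 : l ∣ Nat.card (↥L ⧸ Subgroup.center ↥L) * 2 := by rw [h2]; exact dvd_mul_right _ _
        exact Nat.Coprime.dvd_of_dvd_mul_right ((Nat.coprime_primes hpr Nat.prime_two).2 hl2) h10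
      have hl255 := hK l ((Nat.coprime_primes Nat.prime_two hpr).2 hl2.symm) hlS
      have hr255 := hK r ((Nat.coprime_primes Nat.prime_two h.rprime).2 h.rnep.symm) (dvd_card_quot h.rprime hy hyL hyC)
      have hlc : l = 5 ∨ l = 17 := by
        have h10 : l ∣ 3 * (5 * 17) := by norm_num; exact hl255
        rcases (Nat.Prime.dvd_mul hpr).1 h10 with h11 | h11
        · have := Nat.le_of_dvd (by norm_num) h11
          omega
        · rcases (Nat.Prime.dvd_mul hpr).1 h11 with h12 | h12
          · exact Or.inl ((Nat.prime_dvd_prime_iff_eq hpr (by norm_num)).1 h12)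
          · exact Or.inr ((Nat.prime_dvd_prime_iff_eq hpr (by norm_num)).1 h12)
      have hr17 : r = 17 := by
        have hr8 := h.lt_r
        have h10 : r ∣ 3 * (5 * 17) := by norm_num; exact hr255
        rcases (Nat.Prime.dvd_mul h.rprime).1 h10 with h11 | h11
        · have := Nat.le_of_dvd (by norm_num) h11
          omega
        · rcases (Nat.Prime.dvd_mul h.rprime).1 h11 with h12 | h12
          · have := Nat.le_of_dvd (by norm_num) h12
            omega
          · exact (Nat.prime_dvd_prime_iff_eq h.rprime (by norm_num)).1 h12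
      rcases hlc with h5 | h17
      · rw [h5] at h2
        have h10 : r ∣ 120 := by
          have h11 := (dvd_card_quot h.rprime hy hyL hyC).mul_right 2
          rw [h2] at h11
          norm_num at h11
          exact h11
        rw [hr17] at h10
        norm_num at h10
      · rw [h17] at h2
        have h10 : 9 ∣ Nat.card (↥L ⧸ Subgroup.center ↥L) := by
          have h11 : 9 ∣ Nat.card (↥L ⧸ Subgroup.center ↥L) * 2 := by rw [h2]; norm_num
          exact Nat.Coprime.dvd_of_dvd_mul_right (by norm_num) h11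
        have h11 := hK 9 (by norm_num) h10
        norm_num at h11
    · refine h.small hex (x := 4 * (4 * m + 2)) (Nat.mul_le_mul ?_ le_rfl) ?_
      · have h10 : p ^ 2 ∣ 2 * m := by
          rw [hp2]
          obtain ⟨k, hk⟩ := hm
          exact ⟨k, by rw [hk]; ring⟩
        have h11 := (h.prime.pow_dvd_iff_le_factorization (by omega)).1 h10
        calc 4 = p ^ 2 := by rw [hp2]
          _ ≤ _ := Nat.pow_le_pow_right h.prime.pos h11
      · calc p ^ (Nat.card K).factorization p ≤ p ^ (1 + x + x') := Nat.pow_le_pow_right h.prime.pos (by omega)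
          _ = p * p ^ x * p ^ x' := by rw [pow_add, pow_add, pow_one]
          _ ≤ 2 * 2 * (4 * m + 2) := Nat.mul_le_mul (Nat.mul_le_mul hp2.le (Nat.le_of_dvd two_pos hx2)) (by omega)
          _ = _ := by ring
  · have hC := h.cent_odd hExt hDick hp2 hy hLn hyL (h4S.trans (Subgroup.card_quotient_dvd_card _))
    rw [Nat.factorization_eq_zero_of_not_dvd hC, zero_add] at hv
    have hx0 : x = 0 := by
      by_contra hx0
      exact hp2 ((Nat.prime_dvd_prime_iff_eq h.prime Nat.prime_two).1 ((dvd_pow_self p hx0).trans hx2))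
    rw [hx0, zero_add] at hv
    refine h.small (fun h0 => hp2 h0.1) (x := 4 * m + 2) (Nat.le_mul_of_pos_left _ (Nat.pow_pos h.prime.pos)) ?_
    exact (Nat.pow_le_pow_right h.prime.pos hv).trans (by omega)

/-- **`L / Z(L) = J₁`** -/
theorem false_of_j1 (hExt : StmtExt.{u, v}) (hDick : StmtDick.{v, v}) (hJ : OutJ1.{v}) (hm : Even m) (hp2 : p = 2) {y : K}
    (hy : orderOf y = r) {L : Subgroup K} (hLn : L.Normal) (hyL : y ∈ L) (hsimple : IsSimpleGroup (↥L ⧸ Subgroup.center ↥L))
    (hZ : Subgroup.center (↥L ⧸ Subgroup.center ↥L) = ⊥)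
    (hd : Nat.card K ∣ Nat.card (Subgroup.centralizer (L : Set K)) * Nat.card (MulAut (↥L ⧸ Subgroup.center ↥L)))
    (hS : IsJ1 (↥L ⧸ Subgroup.center ↥L)) : False := by
  have := h.finGL
  have hm4 := h.hm
  have h1 : Nat.card (↥L ⧸ Subgroup.center ↥L) = 175560 := hS.2
  have h2 := card_mulAut hZ
  rw [hJ _ hS, mul_one, h1] at h2
  have hC := h.cent_two hExt hDick hp2 hy hLn hyL (by rw [h1]; norm_num)
  have hv := h.fac_le_cent (L := L) (n := Nat.card (MulAut (↥L ⧸ Subgroup.center ↥L))) (by rw [h2]; norm_num) hd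
  rw [h2] at hv
  have h3 : (175560 : ℕ).factorization p ≤ 3 := by
    rw [hp2]
    exact fac_le_of Nat.prime_two (by norm_num) (by norm_num)
  by_cases hex : p = 2 ∧ f = 1 ∧ m = 8
  · obtain ⟨-, hf, hm8⟩ := hex
    subst hp2 hf hm8
    have h4 := h.val
    have h5 : (2 * 1 : ℕ).factorization 2 ≤ 1 := fac_le_of Nat.prime_two (by norm_num) (by norm_num)
    omega
  · refine h.small hex (x := 4 * (4 * m + 2)) (Nat.mul_le_mul ?_ le_rfl) ?_
    · have h10 : p ^ 2 ∣ 2 * m := by
        rw [hp2]
        obtain ⟨k, hk⟩ := hm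
        exact ⟨k, by rw [hk]; ring⟩
      have h11 := (h.prime.pow_dvd_iff_le_factorization (by omega)).1 h10
      calc 4 = p ^ 2 := by rw [hp2]
        _ ≤ _ := Nat.pow_le_pow_right h.prime.pos h11
    · calc p ^ (Nat.card K).factorization p ≤ p ^ 4 := Nat.pow_le_pow_right h.prime.pos (by omega)
        _ = 16 := by rw [hp2]
        _ ≤ _ := by omega

/-- **`L / Z(L) = A₇`** -/
theorem false_of_a7 (hExt : StmtExt.{u, v}) (hDick : StmtDick.{v, v}) (hp2 : p ≠ 2) {y : K}
    (hy : orderOf y = r) {L : Subgroup K} (hLn : L.Normal) (hyL : y ∈ L)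
    (hZ : Subgroup.center (↥L ⧸ Subgroup.center ↥L) = ⊥)
    (hd : Nat.card K ∣ Nat.card (Subgroup.centralizer (L : Set K)) * Nat.card (MulAut (↥L ⧸ Subgroup.center ↥L)))
    (e : ↥L ⧸ Subgroup.center ↥L ≃* alternatingGroup (Fin 7)) : False := by
  have := h.finGL
  have hm4 := h.hm
  obtain ⟨h1, h2⟩ := a7_data hZ e
  have h3 : 4 ∣ Nat.card (↥L ⧸ Subgroup.center ↥L) := by
    have h4 := card_mulAut hZ
    rw [h1, h2] at h4
    exact ⟨630, by omega⟩
  have hC := h.cent_odd hExt hDick hp2 hy hLn hyL (h3.trans (Subgroup.card_quotient_dvd_card _))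
  have hv := h.fac_le_cent (L := L) (n := Nat.card (MulAut (↥L ⧸ Subgroup.center ↥L))) (by rw [h1]; norm_num) hd
  rw [Nat.factorization_eq_zero_of_not_dvd hC, zero_add, h1] at hv
  refine h.small (fun h0 => hp2 h0.1) (x := 4 * m + 2) (Nat.le_mul_of_pos_left _ (Nat.pow_pos h.prime.pos)) ?_
  calc p ^ (Nat.card K).factorization p ≤ p ^ (5040 : ℕ).factorization p := Nat.pow_le_pow_right h.prime.pos hv
    _ ≤ 9 := pow_5040_le h.prime hp2
    _ ≤ _ := by omega

end Bt

end Cfsg.Agent.H920.Rg
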