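import Cfsg.Agent.H920.Rg.StmtC
import Cfsg.Agent.H997.Rg.Fam
import Cfsg.Agent.H826.Rg.Lin
import Cfsg.Agent.H898.Rg.FBlin

/-!
# S3691, residual case D+1 beta: the frame (helper920)

`K ≤ E Q` (`Q` of plus type, dimension `2 m`) acts freely on the vectors of norm `c ≠ 0`, `O_p(K) = 1`, `r ∣ |K|`,
`ord_r(p) = f m`, `|K|_p ≥ q ^ (m - 1) / (2 f)_p`.
-/

set_option autoImplicit false
set_option linter.unusedSectionVars false

open Cfsg Matrix Module
open QuadraticMap Cfsg.Agent.LieClassical.OrthCore Cfsg.Agent.LieClassical.OrthTrans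
  Cfsg.Agent.ClassicalGeometry.OrthSemi Cfsg.Agent.H449.Reg Cfsg.Agent.H883.Sub
open Cfsg.Agent.H890.SpParity (fix mem_fix even_E)
open Cfsg.Agent.H445.AH (exists_value_mem)
open Cfsg.Agent.H997.Rg (Fpf Cyc SzM nc)

namespace Cfsg.Agent.H920.Rg

universe u v

variable {F : Type u} {V : Type v} [Field F] [AddCommGroup V] [Module F V] {Q : QuadraticForm F V}

/-- the linear representation of a subgroup of `GL(V)` -/
def rep (K : Subgroup (V ≃ₗ[F] V)) : K →* Module.End F V :=
  (LinearEquiv.automorphismGroup.toLinearMapMonoidHom).comp K.subtype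

theorem rep_apply (K : Subgroup (V ≃ₗ[F] V)) (k : K) (v : V) : rep K k v = (k : V ≃ₗ[F] V) v := rfl

theorem rep_injective (K : Subgroup (V ≃ₗ[F] V)) : Function.Injective (rep K) := by
  intro a b h
  apply Subtype.ext
  ext v
  rw [← rep_apply, ← rep_apply, h]

/-- the frame -/
structure Bt (Q : QuadraticForm F V) (K : Subgroup (V ≃ₗ[F] V)) (Γ : Subgroup (Gam Q)) (p f m r : ℕ) (c : F) : Prop where
  good : Good Q
  prime : p.Prime
  rprime : r.Prime
  fpos : 1 ≤ f
  hm : 4 ≤ m
  sz : SzM m (p ^ f)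
  cardF : Nat.card F = p ^ f
  dim : finrank F V = 2 * m
  ord : orderOf (p : ZMod r) = f * m
  le : K ≤ E Q
  hc : c ≠ 0
  free : ∀ k ∈ K, ∀ u, Q u = c → k u = u → k = 1
  rK : r ∣ Nat.card K
  dvd : Nat.card K ∣ p ^ (f * (m - 1)) * (p ^ (f * m) - 1)
  val : f * (m - 1) ≤ (Nat.card K).factorization p + (2 * f).factorization p
  core : pCore p K = ⊥
  conj : ∀ M ∈ Γ, ∀ k ∈ K, conjLin M k ∈ K
  mem : ∀ k : ↥(E Q), lg k ∈ Γ → (k : V ≃ₗ[F] V) ∈ K
  valG : p = 2 → p ^ (f * (m - 1)) ∣ Nat.card Γ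

namespace Bt

variable [Finite F] [FiniteDimensional F V] {K : Subgroup (V ≃ₗ[F] V)} {Γ : Subgroup (Gam Q)} {p f m r : ℕ} {c : F}
  (h : Bt Q K Γ p f m r c)
include h

theorem finV : Finite V := Module.finite_of_finite F

theorem finGL : Finite (V ≃ₗ[F] V) := by
  have := h.finV
  exact Finite.of_injective (fun e : V ≃ₗ[F] V => (e : V → V)) DFunLike.coe_injective

theorem ld : H826.Rg.LD Q K p f m r c where
  nd := h.good.nondeg
  prime := h.prime
  cardF := h.cardF
  dim := h.dim
  hm := by have := h.hm; omega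
  le := fun _ hg => E_le_O (h.le hg)
  hc := h.hc
  free := h.free
  rprime := h.rprime
  ord := h.ord
  rD := h.rK

theorem fm4 : 4 ≤ f * m := by
  have := h.hm
  have := h.fpos
  nlinarith

theorem rnep : r ≠ p := h.ld.rnep

theorem charP : CharP F p := h.ld.charP

theorem lt_r : f * m < r := H997.Rg.lt_of_orderOf h.rprime h.rnep h.prime h.ord

theorem r5 : 5 ≤ r := by
  have := h.lt_r
  have := h.fm4
  omega

theorem nontrivialV : Nontrivial V := by
  apply Module.nontrivial_of_finrank_pos (R := F)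
  rw [h.dim]
  have := h.hm
  omega

theorem not_value {k : V ≃ₗ[F] V} (hk : k ∈ K) (hk1 : k ≠ 1) :
    finrank F (fix k) ≤ finrank F ↥(fix k ⊓ perp Q (fix k)) + 1 := by
  by_contra hcon
  obtain ⟨y, hy, hyv⟩ := exists_value_mem (Q := Q) (Y := fix k) (by omega) c h.hc
  exact hk1 (h.free k hk y hyv (mem_fix.1 hy))

theorem even_fix {k : V ≃ₗ[F] V} (hk : k ∈ K) : Even (finrank F (fix k)) := by
  have h1 := even_E h.good.nondeg (h.le hk)
  rw [h.dim] at h1
  rw [Nat.even_iff] at h1 ⊢
  omega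

/-- elements of prime order `≠ p` have no fixed vectors -/
theorem fix_bot {k : V ≃ₗ[F] V} (hk : k ∈ K) (hs : (orderOf k).Prime) (hsp : orderOf k ≠ p) : fix k = ⊥ := by
  have hch := h.charP
  have hk1 : k ≠ 1 := by
    rintro rfl
    rw [orderOf_one] at hs
    exact Nat.not_prime_one hs
  have h1 := H898.Rg.fix_inf_perp h.good.nondeg (E_le_O (h.le hk)) (pow_orderOf_eq_one k) (by
    intro h0
    exact hsp ((Nat.prime_dvd_prime_iff_eq h.prime hs).1 ((CharP.cast_eq_zero_iff F p _).1 h0)).symm)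
  have h2 := h.not_value hk hk1
  rw [h1, finrank_bot] at h2
  have h3 := h.even_fix hk
  rw [Nat.even_iff] at h3
  exact Submodule.finrank_eq_zero.1 (by omega)

theorem fpf : Fpf p (rep K) := by
  intro g hg hgp v hv
  have h1 := h.fix_bot g.2 (by rwa [Subgroup.orderOf_coe]) (by rwa [Subgroup.orderOf_coe])
  have h2 : v ∈ fix (g : V ≃ₗ[F] V) := mem_fix.2 hv
  rwa [h1, Submodule.mem_bot] at h2

theorem exists_y : ∃ y : K, orderOf y = r := by
  have := h.finGL
  have := Fact.mk h.rprime
  exact exists_prime_orderOf_dvd_card' r h.rK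

theorem cyc : Cyc p K := by
  have := h.charP
  have := h.finGL
  have := h.nontrivialV
  refine ⟨fun s hs hs2 hsp P => h.fpf.cyc h.prime hs hs2 hsp P, ?_⟩
  by_cases h2 : p = 2
  · exact Or.inl h2
  · exact Or.inr fun a b hab ha hb => h.fpf.inv h.prime h2 a b hab ha hb

/-- the `p'`-part -/
theorem ordCompl_dvd : Nat.card K / p ^ (Nat.card K).factorization p ∣ p ^ (f * m) - 1 := by
  have := h.finGL
  have h1 := (Nat.ordCompl_dvd (Nat.card K) p).trans h.dvd
  exact Nat.Coprime.dvd_of_dvd_mul_left (Nat.Coprime.pow_right _ (Nat.coprime_ordCompl h.prime Nat.card_pos.ne').symm) h1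

theorem fac_le_fm : (Nat.card K).factorization p ≤ f * (m - 1) := by
  have := h.finGL
  have hfm := h.fm4
  have h0 : p ^ (f * m) - 1 ≠ 0 := by
    have : 1 < p ^ (f * m) := Nat.one_lt_pow (by omega) h.prime.one_lt
    omega
  have h1 := H997.Rg.fac_le (p := p) h.dvd (mul_ne_zero (pow_ne_zero _ h.prime.ne_zero) h0)
  rw [Nat.factorization_mul (pow_ne_zero _ h.prime.ne_zero) h0, Finsupp.add_apply, Nat.factorization_pow, Finsupp.smul_apply,
    h.prime.factorization_self, Nat.factorization_eq_zero_of_not_dvd (H997.Rg.not_dvd_sub_one h.prime (by omega))] at h1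
  simpa using h1

theorem fac_lt_r : (Nat.card K).factorization p < r := by
  have h1 := h.fac_le_fm
  have h2 := h.lt_r
  have h3 : f * (m - 1) ≤ f * m := Nat.mul_le_mul_left f (Nat.sub_le m 1)
  omega

/-- **`p = 2` : `m` is even** -/
theorem even_m (hp2 : p = 2) : Even m := by
  have := h.finGL
  subst hp2
  have hch := h.charP
  have h20 : (2 : F) = 0 := by exact_mod_cast CharP.cast_eq_zero F 2
  have hv : 2 ∣ Nat.card K := by
    by_contra hcon
    have h1 := h.val
    rw [Nat.factorization_eq_zero_of_not_dvd hcon, zero_add] at h1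
    have h2 : (2 * f).factorization 2 ≤ f := by
      have h3 : 2 ^ (2 * f).factorization 2 ≤ 2 * f := H997.Rg.pow_fac_le (by have := h.fpos; omega)
      have h4 : f < 2 ^ f := Nat.lt_two_pow_self
      have h5 : 2 ^ (2 * f).factorization 2 < 2 ^ (f + 1) := by rw [pow_succ]; omega
      have h6 := (Nat.pow_lt_pow_iff_right (by norm_num)).1 h5
      omega
    have h3 := h.hm
    have h4 := h.fpos
    have h5 : f * 3 ≤ f * (m - 1) := Nat.mul_le_mul_left f (by omega)
    omega
  have := Fact.mk Nat.prime_two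
  obtain ⟨g, hg⟩ := exists_prime_orderOf_dvd_card' (G := K) 2 hv
  have hgg : (g : V ≃ₗ[F] V) * g = 1 := by
    have h1 := pow_orderOf_eq_one g
    rw [hg, pow_two] at h1
    exact congrArg Subtype.val h1
  have hg1 : (g : V ≃ₗ[F] V) ≠ 1 := by
    intro h1
    have h2 : g = 1 := Subtype.ext h1
    rw [h2, orderOf_one] at hg
    omega
  set k : V ≃ₗ[F] V := g.1 with hk
  have hgv : ∀ v, k (k v) = v := fun v => by
    have := LinearEquiv.congr_fun hgg v
    exact this
  -- the fixed space is totally singular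
  have hQ : ∀ u ∈ fix k, Q u = 0 := by
    intro u hu
    by_contra hu0
    have hF := Fintype.ofFinite F
    obtain ⟨a, ha⟩ := FiniteField.isSquare_of_char_two (F := F) (ringChar.eq F 2) (c / Q u)
    apply hg1
    refine h.free k g.2 (a • u) ?_ (by rw [map_smul, mem_fix.1 hu])
    rw [QuadraticMap.map_smul, ← ha, smul_eq_mul, div_mul_cancel₀ _ hu0]
  have hle : fix k ≤ perp Q (fix k) := by
    intro u hu
    rw [mem_perp]
    intro w hw
    have h1 := hQ _ ((fix k).add_mem hw hu)
    rw [Q_add, hQ w hw, hQ u hu] at h1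
    simpa using h1
  have h1 := Submodule.finrank_mono hle
  have h2 := finrank_perp h.good.nondeg (fix k)
  -- rank and nullity
  have h3 : LinearMap.range (k.toLinearMap - LinearMap.id) ≤ fix k := by
    rintro _ ⟨x, rfl⟩
    rw [mem_fix]
    change k (k x - x) = k x - x
    rw [map_sub, hgv]
    have h4 : (2 : F) • (k x - x) = 0 := by rw [h20, zero_smul]
    have h5 : x - k x = (k x - x) - (2 : F) • (k x - x) := by module
    rw [h5, h4, sub_zero]
  have h4 := LinearMap.finrank_range_add_finrank_ker (k.toLinearMap - LinearMap.id)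
  have h5 := Submodule.finrank_mono h3
  have h6 : LinearMap.ker (k.toLinearMap - LinearMap.id) = fix k := rfl
  rw [h6] at h4
  rw [h.dim] at h2 h4
  have h7 : finrank F (fix k) = m := by omega
  have h8 := h.even_fix g.2
  rw [← hk, h7] at h8
  exact h8

end Bt

end Cfsg.Agent.H920.Rg
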