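import Cfsg.Agent.H920.Rg.CaseD

/-!
# S3691, residual case D+1 beta: the frame is contradictory (helper920)
-/

set_option autoImplicit false
set_option linter.unusedSectionVars false

open Cfsg Matrix Module
open QuadraticMap Cfsg.Agent.LieClassical.OrthCore Cfsg.Agent.LieClassical.OrthTrans
  Cfsg.Agent.ClassicalGeometry.OrthSemi Cfsg.Agent.H449.Reg
open Cfsg.Agent.H997.Rg

namespace Cfsg.Agent.H920.Rg

universe u v

variable {F : Type u} {V : Type v} [Field F] [AddCommGroup V] [Module F V] {Q : QuadraticForm F V}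

namespace Bt

variable [Finite F] [FiniteDimensional F V] {K : Subgroup (V ≃ₗ[F] V)} {Γ : Subgroup (Gam Q)} {p f m r : ℕ} {c : F}
  (h : Bt Q K Γ p f m r c)
include h

/-- **There is no frame.** -/
theorem contra (hExt : StmtExt.{u, v}) (hDick : StmtDick.{v, v}) (hInv : StmtInv.{u, v}) (hJ : OutJ1.{v}) : False := by
  have := h.finGL
  by_cases hm : Even m
  swap
  · exact h.false_of_odd hExt hJ hm
  obtain ⟨y, hy⟩ := h.exists_y
  rcases coreS h.prime h.rprime h.rnep h.not_two h.cyc y hy (h.fit hy)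
    (hout_of hJ h.prime h.rprime h.not_two h.cyc h.fac_lt_r) with hn | ⟨L, hL, hLn, hyL, hyC, hS, hd, hd2⟩
  · exact h.false_of_normal hExt hDick hm hy hn
  have hsimple : IsSimpleGroup (↥L ⧸ Subgroup.center ↥L) := hL.2.2
  have hZ := center_bot (not_comm_of (quasisimple_quot_not_solvable hL.2))
  rcases hS with hS | hS | hS | hS | hS
  · obtain ⟨E, iE, iE', b, hE, h4, ⟨e⟩⟩ := hS
    by_cases hp2 : p = 2
    · exact h.false_of_psl_two hInv hm hp2 hy hLn hyL hyC hsimple hZ hd2 hE h4 e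
    · exact h.false_of_psl_odd hExt hDick hp2 hy hLn hyL hyC hZ hd hE h4 e
  · obtain ⟨E, iE, iE', hpr, hne, h5, ⟨e⟩⟩ := hS
    exact h.false_of_psl hExt hDick hm hy hLn hyL hyC hZ hd hpr hne h5 e
  · exact h.false_of_sz hExt hDick hm hS.1 hy hLn hyL hyC hZ hd hd2 hS.2
  · exact h.false_of_j1 hExt hDick hJ hm hS.1 hy hLn hyL hsimple hZ hd hS.2
  · obtain ⟨hp2, ⟨e⟩⟩ := hS
    exact h.false_of_a7 hExt hDick hp2 hy hLn hyL hZ hd e

end Bt

end Cfsg.Agent.H920.Rg
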