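import Mathlib
import Cfsg.Prelude.Def_Local

/-!
# S3691, residual case D+1 beta: statements of the pieces (helper920)
-/

set_option autoImplicit false

open Cfsg Matrix Module

namespace Cfsg.Agent.H920.Rg

universe u v

/-- **piece A** : finite subgroups of `GL₂(E)` of order divisible by the characteristic `p`, with `O_p = 1` -/
def StmtDick : Prop := ∀ (E : Type v) [Field E] [Fintype E] (p : ℕ) [Fact p.Prime] [CharP E p] (C : Type u) [Group C] [Finite C]
  (φ : C →* GL (Fin 2) E), Function.Injective φ → p ∣ Nat.card C → pCore p C = ⊥ →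
  ∃ C0 : Subgroup C, (∀ c ∈ C0, (φ c : Matrix (Fin 2) (Fin 2) E).det = 1) ∧
    (p ≠ 2 → ∃ u ∈ C0, orderOf u = 4 ∧ ∃ t ∈ C0, t * u ≠ u * t) ∧
    (p = 2 → (Nat.card C).factorization 2 = 1 ∨ ∃ u ∈ C0, orderOf u = 3 ∧ ∃ t ∈ C0, t * u ≠ u * t) ∧
    ((Nat.card C).factorization p ≤ 1 ∨ (p ^ (Nat.card C).factorization p) ^ 2 - 1 ∣ 2 * Nat.card C0)

/-- **piece B** : an element `y` of prime order `r` (`p` of order `f m` modulo `r`) without fixed vectors on `V`, `dim V = 2 m`,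
`|F| = p ^ f`, which commutes with an element `g` of order `p` : the algebra `F[y]` is a field `E` with `p ^ (f m)` elements, and the
centraliser of `y` in `GL(V)` embeds in `GL₂(E)`; `|Γ : C_Γ(y)|` divides `m` for the subgroups `Γ` normalising `⟨y⟩` -/
def StmtExt : Prop := ∀ (F : Type u) (V : Type v) [Field F] [Finite F] [AddCommGroup V] [Module F V] [FiniteDimensional F V]
  (p f m r : ℕ), p.Prime → Nat.card F = p ^ f → r.Prime → orderOf (p : ZMod r) = f * m → 0 < f → 0 < m → finrank F V = 2 * m →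
  ∀ y g : V ≃ₗ[F] V, orderOf y = r → (∀ v, y v = v → v = 0) → g * y = y * g → orderOf g = p →
  (∃ (E : Type v) (_ : Field E) (_ : Fintype E) (φ : Subgroup.centralizer ({y} : Set (V ≃ₗ[F] V)) →* GL (Fin 2) E),
    CharP E p ∧ Function.Injective φ ∧ Nat.card E = p ^ (f * m) ∧
    ∀ z : Subgroup.centralizer ({y} : Set (V ≃ₗ[F] V)), (z : V ≃ₗ[F] V) = y →
      ∃ c : E, (φ z : Matrix (Fin 2) (Fin 2) E) = Matrix.scalar (Fin 2) c) ∧
  (∀ Γ : Subgroup (V ≃ₗ[F] V), (∀ g ∈ Γ, g * y * g⁻¹ ∈ Subgroup.zpowers y) →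
    Nat.card Γ ∣ Nat.card (Γ ⊓ Subgroup.centralizer ({y} : Set (V ≃ₗ[F] V)) : Subgroup (V ≃ₗ[F] V)) * m) ∧
  (∀ B : LinearMap.BilinForm F V, B.Nondegenerate → (∀ u w, B (y u) (y w) = B u w) → r ≠ 2 → Even m)

end Cfsg.Agent.H920.Rg
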