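import Cfsg.Agent.H449.Reg.Semi
import Cfsg.Agent.H920.Rg.StmtA

/-!
# S3691, residual case D+1 beta: statement of the piece on semisimilitudes, `p = 2` (helper920)
-/

set_option autoImplicit false

open Cfsg Matrix Module
open QuadraticMap Cfsg.Agent.LieClassical.OrthCore Cfsg.Agent.LieClassical.OrthTrans
  Cfsg.Agent.ClassicalGeometry.OrthSemi Cfsg.Agent.H449.Reg

namespace Cfsg.Agent.H920.Rg

universe u v

/-- **piece C** : `|F| = 2 ^ f`, `dim V = 2 m`, `m` even, `L ≤ E Q` of order `2 ^ b (2 ^ (2 b) - 1)`, `2 b = f m`, with an element `y` of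
prime order `r` such that `2` has order `f m` modulo `r`; the elements of odd prime order of `L` have no fixed vectors. A
semisimilitude `M` of order at most 2 commuting with `L` lies in `E Q`. -/
def StmtInv : Prop := ∀ (F : Type u) (V : Type v) [Field F] [Finite F] [AddCommGroup V] [Module F V] [FiniteDimensional F V]
  (Q : QuadraticForm F V) (f m b r : ℕ), Good Q → Nat.card F = 2 ^ f → 0 < f → 4 ≤ m → Even m → finrank F V = 2 * m →
  2 * b = f * m → r.Prime → orderOf (2 : ZMod r) = f * m →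
  ∀ L : Subgroup (V ≃ₗ[F] V), L ≤ E Q → Nat.card L = 2 ^ b * ((2 ^ b) ^ 2 - 1) → (∃ y ∈ L, orderOf y = r) →
  (∀ x ∈ L, (orderOf x).Prime → orderOf x ≠ 2 → ∀ v, x v = v → v = 0) →
  ∀ M : Gam Q, M * M = 1 → (∀ x ∈ L, ∀ v, M.1 (x v) = x (M.1 v)) → ∃ k : ↥(E Q), lg k = M

end Cfsg.Agent.H920.Rg
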